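import Cfsg.Agent.H637.PG.TwF4W

/-!
# The linear maps of `TwF4W` (helper637)
-/

set_option autoImplicit false

namespace Cfsg.Agent.H637.PG.TwF4W

/-! ### the linear maps -/

def V4.fn (v : V4) : Fin 4 → ℤ := ![v.a, v.b, v.c, v.d]

def ofn (x : Fin 4 → ℤ) : V4 := ⟨x 0, x 1, x 2, x 3⟩

theorem ofn_fn (v : V4) : ofn v.fn = v := rfl

theorem fn_ofn (x : Fin 4 → ℤ) : (ofn x).fn = x := by
  funext i; fin_cases i <;> rfl

/-- the linear map -/
def lin (M : M4) : (Fin 4 → ℤ) →ₗ[ℤ] (Fin 4 → ℤ) where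
  toFun x := (app M (ofn x)).fn
  map_add' x y := by
    funext i
    fin_cases i <;> simp [V4.fn, app, ofn] <;> ring
  map_smul' c x := by
    funext i
    fin_cases i <;> simp [V4.fn, app, ofn] <;> ring

theorem lin_apply (M : M4) (x : Fin 4 → ℤ) : lin M x = (app M (ofn x)).fn := rfl

theorem lin_comp (M N : M4) (x : Fin 4 → ℤ) : lin (comp M N) x = lin M (lin N x) := by
  rw [lin_apply, lin_apply, lin_apply, ofn_fn, app_comp]

theorem lin_I4 (x : Fin 4 → ℤ) : lin I4 x = x := by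
  funext i
  fin_cases i <;> simp [lin_apply, V4.fn, app, ofn, I4]

theorem rowOK_iff {p y0 y1 y2 y3 y4 : V4} (h : rowOK p y0 y1 y2 y3 y4 = true) :
    y4.a = p.a * y3.a - p.b * y2.a + p.c * y1.a - p.d * y0.a ∧
    y4.b = p.a * y3.b - p.b * y2.b + p.c * y1.b - p.d * y0.b ∧
    y4.c = p.a * y3.c - p.b * y2.c + p.c * y1.c - p.d * y0.c ∧
    y4.d = p.a * y3.d - p.b * y2.d + p.c * y1.d - p.d * y0.d := by
  unfold rowOK at h
  rw [Bool.and_eq_true, Bool.and_eq_true, Bool.and_eq_true, decide_eq_true_eq, decide_eq_true_eq, decide_eq_true_eq,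
    decide_eq_true_eq] at h
  exact ⟨h.1.1.1, h.1.1.2, h.1.2, h.2⟩

theorem chkP_iff {X : M4} {p : V4} (h : chkP X (comp X X) (comp X (comp X X)) (comp X (comp X (comp X X))) p = true)
    (x : Fin 4 → ℤ) : lin X (lin X (lin X (lin X x))) =
      p.a • lin X (lin X (lin X x)) - p.b • lin X (lin X x) + p.c • lin X x - p.d • x := by
  unfold chkP at h
  rw [Bool.and_eq_true, Bool.and_eq_true, Bool.and_eq_true] at h
  obtain ⟨⟨⟨h0, h1⟩, h2⟩, h3⟩ := h
  obtain ⟨a0, b0, c0, d0⟩ := rowOK_iff h0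
  obtain ⟨a1, b1, c1, d1⟩ := rowOK_iff h1
  obtain ⟨a2, b2, c2, d2⟩ := rowOK_iff h2
  obtain ⟨a3, b3, c3, d3⟩ := rowOK_iff h3
  have e1 : lin X (lin X x) = lin (comp X X) x := (lin_comp _ _ _).symm
  have e2 : lin X (lin (comp X X) x) = lin (comp X (comp X X)) x := (lin_comp _ _ _).symm
  have e3 : lin X (lin (comp X (comp X X)) x) = lin (comp X (comp X (comp X X))) x := (lin_comp _ _ _).symm
  rw [e1, e2, e3]
  clear e1 e2 e3 h0 h1 h2 h3
  generalize comp X (comp X (comp X X)) = Y4 at *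
  generalize comp X (comp X X) = Y3 at *
  generalize comp X X = Y2 at *
  funext i
  fin_cases i
  · simp only [lin_apply, V4.fn, app, ofn, Pi.sub_apply, Pi.add_apply, Pi.smul_apply, smul_eq_mul, Fin.zero_eta,
      Matrix.cons_val_zero]
    rw [a0, a1, a2, a3]
    ring
  · simp only [lin_apply, V4.fn, app, ofn, Pi.sub_apply, Pi.add_apply, Pi.smul_apply, smul_eq_mul, Fin.mk_one,
      Matrix.cons_val_one, Matrix.cons_val_zero]
    rw [b0, b1, b2, b3]
    ring
  · simp only [lin_apply, V4.fn, app, ofn, Pi.sub_apply, Pi.add_apply, Pi.smul_apply, smul_eq_mul, Fin.reduceFinMk,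
      Matrix.cons_val]
    rw [c0, c1, c2, c3]
    ring
  · simp only [lin_apply, V4.fn, app, ofn, Pi.sub_apply, Pi.add_apply, Pi.smul_apply, smul_eq_mul, Fin.reduceFinMk,
      Matrix.cons_val]
    rw [d0, d1, d2, d3]
    ring

/-- **Cramer's rule.** -/
theorem cramer (u v w x y : V4) :
    det4 u v w x * y.a = det4 y v w x * u.a + det4 u y w x * v.a + det4 u v y x * w.a + det4 u v w y * x.a ∧
    det4 u v w x * y.b = det4 y v w x * u.b + det4 u y w x * v.b + det4 u v y x * w.b + det4 u v w y * x.b ∧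
    det4 u v w x * y.c = det4 y v w x * u.c + det4 u y w x * v.c + det4 u v y x * w.c + det4 u v w y * x.c ∧
    det4 u v w x * y.d = det4 y v w x * u.d + det4 u y w x * v.d + det4 u v y x * w.d + det4 u v w y * x.d := by
  unfold det4
  refine ⟨by ring, by ring, by ring, by ring⟩

theorem cramer_fn (u v w x y : Fin 4 → ℤ) :
    det4 (ofn u) (ofn v) (ofn w) (ofn x) • y = det4 (ofn y) (ofn v) (ofn w) (ofn x) • u +
      det4 (ofn u) (ofn y) (ofn w) (ofn x) • v + det4 (ofn u) (ofn v) (ofn y) (ofn x) • w +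
      det4 (ofn u) (ofn v) (ofn w) (ofn y) • x := by
  obtain ⟨h1, h2, h3, h4⟩ := cramer (ofn u) (ofn v) (ofn w) (ofn x) (ofn y)
  funext i
  fin_cases i
  · exact h1
  · exact h2
  · exact h3
  · exact h4

/-- the regular type -/
def Six (X : M4) : Prop := (∀ x : Fin 4 → ℤ, lin X (lin X (lin X (lin X x))) = (2 : ℤ) • lin X (lin X x) - (4 : ℤ) • x) ∧
  ∀ a ∈ roots, det4 a (ofn (lin X a.fn)) (ofn (lin X (lin X a.fn))) (ofn (lin X (lin X (lin X a.fn)))) ∣ 48

theorem main_of_chk {X : M4} (h : chk X = true) : Six X ∨ ∃ p ∈ polys, ∀ x : Fin 4 → ℤ,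
    lin X (lin X (lin X (lin X x))) = p.a • lin X (lin X (lin X x)) - p.b • lin X (lin X x) + p.c • lin X x - p.d • x := by
  unfold chk chk2 chk3 at h
  rw [Bool.or_eq_true, Bool.and_eq_true] at h
  rcases h with ⟨h1, h2⟩ | h
  · refine Or.inl ⟨fun x => ?_, fun a ha => ?_⟩
    · rw [chkP_iff h1 x]
      simp [p6]
    · have h3 := List.all_eq_true.1 h2 a ha
      rw [decide_eq_true_eq] at h3
      have e : ∀ M : M4, ofn (lin M a.fn) = app M a := fun M => by rw [lin_apply, ofn_fn, ofn_fn]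
      rw [← lin_comp, ← lin_comp, e, e, e]
      exact Int.dvd_of_emod_eq_zero h3
  · obtain ⟨p, hp, h4⟩ := List.any_eq_true.1 h
    exact Or.inr ⟨p, hp, chkP_iff h4⟩

end Cfsg.Agent.H637.PG.TwF4W
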