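import Cfsg.Agent.H637.PG.TwF4L
import Cfsg.Agent.H659.TwF4Ord
import Cfsg.Agent.H343.PG.TwF4Fifteen

/-!
# Nonadjacency in the prime graph of `²F₄(q)`, `q = 2 ^ (2 m + 1) ≥ 8` (helper637, for S3635)

* `tf4_nonadj` : the primes `t ≠ 3` of `q² - q + 1` are not adjacent to the primes not dividing `q² - q + 1`;
* `tf4_three_five` : no elements of order 15 (helper343).
-/

set_option autoImplicit false
set_option linter.unusedSectionVars false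
set_option linter.unusedVariables false

namespace Cfsg.Agent.H637.PG.TwF4Non

open CoxeterSystem Cfsg Cfsg.Lie Cfsg.Lie.ChevalleyDatum
open Cfsg.Agent.ChevalleyStructure Cfsg.Agent.ChevalleyStructure.Elts Cfsg.Agent.ChevalleyStructure.CoxeterGeom
  Cfsg.Agent.ChevalleyStructure.CoxeterGeomTypes Cfsg.Agent.ChevalleyStructure.NPerm
open Cfsg.Agent.Tits.Roots Cfsg.Agent.Tits.Core Cfsg.Agent.Nodes Cfsg.Agent.Nodes.Reps Cfsg.Agent.Nodes.BNOf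
  Cfsg.Agent.Nodes.RGDChev
open Cfsg.Agent.KFacts.RgdField Cfsg.Agent.KFacts.RgdChevCoord Cfsg.Agent.BpExc.TorCent Cfsg.Agent.BpExc.TorChev
open Cfsg.Agent.GpExc.Field Cfsg.Agent.BpExc.Tow Cfsg.Agent.BpExc.TowChev
  Cfsg.Agent.BpExc.LangFr Cfsg.Agent.BpExc Cfsg.Agent.H129.TorusChar Cfsg.Agent.H129
open Cfsg.Agent.H493.F4End Cfsg.Agent.H493.F4Fix Cfsg.Agent.H493.F4Tor
open Cfsg.Agent.BpExc.TorAll (HAlg)
open Cfsg.Agent.H637.PG.TwF4W

universe u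

/-! ### characters -/

theorem eq_one {M : Type*} [Monoid M] {y : M} {m n : ℕ} (h : Nat.Coprime m n) (h1 : y ^ m = 1) (h2 : y ^ n = 1) :
    y = 1 := by
  have h3 := Nat.dvd_gcd (orderOf_dvd_of_pow_eq_one h1) (orderOf_dvd_of_pow_eq_one h2)
  rw [h] at h3
  exact orderOf_eq_one_iff.1 (Nat.dvd_one.1 h3)

section Chars

variable {k : Type u} [Field k] {φ : (Fin 4 → ℤ) → k} (hφ : IsMC φ) {X : M4} {Q : ℤ}
  (hX : ∀ x, φ (Q • lin X x) = φ x)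

include hφ hX

theorem pow_ann {a b c d : ℤ} (h : ∀ x, lin X (lin X (lin X (lin X x))) =
    a • lin X (lin X (lin X x)) - b • lin X (lin X x) + c • lin X x - d • x) (x : Fin 4 → ℤ) :
    φ x ^ (1 - a * Q + b * Q ^ 2 - c * Q ^ 3 + d * Q ^ 4) = 1 := by
  have k2 : ∀ x, φ ((Q ^ 2) • lin X (lin X x)) = φ x := fun x => by
    have h1 := hX (Q • lin X x)
    rw [map_smul, smul_smul, hX] at h1
    rwa [pow_two]
  have k3 : ∀ x, φ ((Q ^ 3) • lin X (lin X (lin X x))) = φ x := fun x => by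
    have h1 := k2 (Q • lin X x)
    rw [map_smul, map_smul, smul_smul, hX] at h1
    rwa [show Q ^ 3 = Q ^ 2 * Q by ring]
  have k4 : ∀ x, φ ((Q ^ 4) • lin X (lin X (lin X (lin X x)))) = φ x := fun x => by
    have h1 := k3 (Q • lin X x)
    rw [map_smul, map_smul, map_smul, smul_smul, hX] at h1
    rwa [show Q ^ 4 = Q ^ 3 * Q by ring]
  have h0 := hφ.ne_zero x
  have e : (Q ^ 4) • lin X (lin X (lin X (lin X x))) = (a * Q) • ((Q ^ 3) • lin X (lin X (lin X x))) -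
      (b * Q ^ 2) • ((Q ^ 2) • lin X (lin X x)) + (c * Q ^ 3) • (Q • lin X x) - (d * Q ^ 4) • x := by
    rw [h]
    funext i
    simp only [Pi.add_apply, Pi.sub_apply, Pi.smul_apply, smul_eq_mul]
    ring
  have e2 := congrArg φ e
  rw [k4, hφ.sub, hφ.add, hφ.sub, hφ.zsmul, hφ.zsmul (b * Q ^ 2), hφ.zsmul (c * Q ^ 3), hφ.zsmul (d * Q ^ 4), k3, k2,
    hX] at e2
  have e3 : φ x ^ (1 : ℤ) = φ x ^ (a * Q - b * Q ^ 2 + c * Q ^ 3 - d * Q ^ 4) := by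
    rw [zpow_one, zpow_sub₀ h0, zpow_add₀ h0, zpow_sub₀ h0]
    exact e2
  have e4 : (1 - a * Q + b * Q ^ 2 - c * Q ^ 3 + d * Q ^ 4) = 1 - (a * Q - b * Q ^ 2 + c * Q ^ 3 - d * Q ^ 4) := by
    ring
  rw [e4, zpow_sub₀ h0, e3, div_self (zpow_ne_zero _ h0)]

theorem reg {n : ℕ} (hn : Nat.Coprime n 48) (hQ : IsCoprime (n : ℤ) Q) (hpow : ∀ x, φ x ^ n = 1) (h6 : Six X) {a : V4}
    (ha : a ∈ roots) (h1 : φ a.fn = 1) (y : Fin 4 → ℤ) : φ y = 1 := by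
  have step : ∀ z, φ z = 1 → φ (lin X z) = 1 := by
    intro z hz
    have h2 : φ (lin X z) ^ Q = 1 := by rw [← hφ.zsmul, hX, hz]
    have h3 : φ (lin X z) ^ (n : ℤ) = 1 := by rw [zpow_natCast, hpow]
    obtain ⟨u, v, huv⟩ := hQ
    have h0 := hφ.ne_zero (lin X z)
    rw [← zpow_one (φ (lin X z)), ← huv, zpow_add₀ h0, mul_comm u, mul_comm v, zpow_mul, zpow_mul, h2, h3, one_zpow,
      one_zpow, one_mul]
  have h2 := step _ h1
  have h3 := step _ h2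
  have h4 := step _ h3
  have h5 := cramer_fn a.fn (lin X a.fn) (lin X (lin X a.fn)) (lin X (lin X (lin X a.fn))) y
  obtain ⟨e, he⟩ := h6.2 a ha
  have h6' := congrArg φ h5
  rw [hφ.add, hφ.add, hφ.add, hφ.zsmul, hφ.zsmul, hφ.zsmul, hφ.zsmul, hφ.zsmul, h1, h2, h3, h4, one_zpow, one_zpow,
    one_zpow, one_zpow, one_mul, one_mul, one_mul, ofn_fn] at h6'
  have h7 : φ y ^ 48 = 1 := by
    have h8 : φ y ^ (48 : ℤ) = 1 := by
      rw [he, zpow_mul, h6', one_zpow]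
    exact_mod_cast h8
  exact eq_one hn (hpow y) h7

omit hX in
theorem lin_pow {z : k} {A B : ℤ} (h0 : z ≠ 0) (hA : z ^ A = 1) (hB : z ^ B = 1) (U V : ℤ) (h : 3 = U * A + V * B) :
    z ^ 3 = 1 := by
  have h3 : z ^ (3 : ℤ) = 1 := by
    rw [h, zpow_add₀ h0, mul_comm U, mul_comm V, zpow_mul, zpow_mul, hA, hB, one_zpow, one_zpow, one_mul]
  exact_mod_cast h3

/-- **The type of a character of order `t ∣ 4 Q⁴ - 2 Q² + 1`.** -/
theorem six_of {n : ℕ} (hn : Nat.Coprime n 3) (hpow : ∀ x, φ x ^ n = 1) (hd : (n : ℤ) ∣ 4 * Q ^ 4 - 2 * Q ^ 2 + 1)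
    (hne : ∃ x, φ x ≠ 1) (hchk : chk X = true) : Six X := by
  rcases main_of_chk hchk with h | ⟨p, hp, h⟩
  · exact h
  exfalso
  obtain ⟨x, hx⟩ := hne
  apply hx
  refine eq_one hn (hpow x) ?_
  have hA := pow_ann hφ hX h x
  have hB : φ x ^ (4 * Q ^ 4 - 2 * Q ^ 2 + 1) = 1 := by
    obtain ⟨c, hc⟩ := hd
    rw [hc, zpow_mul, zpow_natCast, hpow, one_zpow]
  have h0 := hφ.ne_zero x
  simp only [polys, List.mem_cons, List.not_mem_nil, or_false] at hp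
  rcases hp with rfl | rfl | rfl | rfl | rfl | rfl | rfl | rfl | rfl | rfl
  · exact lin_pow hφ h0 hA hB (1 + 2 * Q ^ 2) (2 + 2 * Q ^ 2) (by ring)
  · exact lin_pow hφ h0 hA hB (3 * (1 + 2 * Q + 2 * Q ^ 2)) (3 * (2 * Q ^ 2)) (by ring)
  · exact lin_pow hφ h0 hA hB (3 * (1 - 2 * Q + 2 * Q ^ 2)) (3 * (2 * Q ^ 2)) (by ring)
  · exact lin_pow hφ h0 hA hB (3 * (-1 - Q + 2 * Q ^ 2 + 4 * Q ^ 3)) (3 * (2 - Q + 2 * Q ^ 2 - 4 * Q ^ 3)) (by ring)
  · exact lin_pow hφ h0 hA hB (3 * (-1 + Q + 2 * Q ^ 2 - 4 * Q ^ 3)) (3 * (2 + Q + 2 * Q ^ 2 + 4 * Q ^ 3)) (by ring)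
  · exact lin_pow hφ h0 hA hB (3 * (-1 + 2 * Q ^ 2)) (3 * (2 - 2 * Q ^ 2)) (by ring)
  · exact lin_pow hφ h0 hA hB (3 * (1 - 2 * Q ^ 2)) (3 * (2 * Q ^ 2)) (by ring)
  · exact lin_pow hφ h0 hA hB (1 - 2 * Q ^ 2) (2 + 2 * Q ^ 2) (by ring)
  · exact lin_pow hφ h0 hA hB (3 * (5 + 4 * Q - 10 * Q ^ 2 - 16 * Q ^ 3)) (3 * (-4 + 16 * Q - 22 * Q ^ 2 + 16 * Q ^ 3))
      (by ring)
  · exact lin_pow hφ h0 hA hB (3 * (5 - 4 * Q - 10 * Q ^ 2 + 16 * Q ^ 3)) (3 * (-4 - 16 * Q - 22 * Q ^ 2 - 16 * Q ^ 3))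
      (by ring)

end Chars

/-! ### the Weyl group -/

theorem rep_lin {W : Type*} [Group W] (cs : CoxeterSystem CoxeterMatrix.F₄ W) (i : Fin 4) (x : Fin 4 → ℤ) :
    rep cs hp.isCartan (cs.simple i) x = lin (s4 i) x := by
  have e : pairing (cartanOf chevF4 4) i x = ∑ n, H493.PGF4T.Am i n * x n := by
    unfold pairing
    exact Finset.sum_congr rfl fun n _ => by rw [H493.PGF4T.hA]
  rw [rep_simple_eq, e, Fin.sum_univ_four]
  funext m
  fin_cases i <;> fin_cases m <;>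
    simp [H493.PGF4T.Am, H493.PGF4.Am, lin_apply, V4.fn, app, ofn, s4, sr] <;> ring

theorem exists_prod {W : Type*} [Group W] (cs : CoxeterSystem CoxeterMatrix.F₄ W) (w : W) :
    ∃ M, Prod4 M ∧ ∀ x, rep cs hp.isCartan w x = lin M x := by
  induction w using cs.simple_induction_left with
  | one => exact ⟨I4, prod4_one, fun x => by rw [map_one, Module.End.one_apply, lin_I4]⟩
  | mul_simple_left w i ih =>
    obtain ⟨M, hM, h⟩ := ih
    exact ⟨_, prod4_step hM i, fun x => by rw [map_mul, Module.End.mul_apply, h, rep_lin, lin_comp]⟩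

theorem root_tab : ∀ r : Fin 48, ∃ v ∈ roots, (∀ i : Fin 4, vec chevF4 4 r i = v.fn i) ∨
    (∀ i : Fin 4, vec chevF4 4 r i = - v.fn i) := by
  decide +kernel

theorem root_list {W : Type*} [Group W] (cs : CoxeterSystem CoxeterMatrix.F₄ W) {a : Fin 4 → ℤ}
    (ha : IsRoot cs hp.isCartan a) : ∃ v ∈ roots, a = v.fn ∨ a = - v.fn := by
  obtain ⟨r, hr, rfl⟩ := (isRoot_iff hp cs a).1 ha
  obtain ⟨v, hv, h⟩ := root_tab ⟨r, hr⟩
  exact ⟨v, hv, h.imp funext funext⟩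

/-! ### the torus -/

section Alg

variable {k : Type u} [Field k] [IsAlgClosed k] [CharP k 2]

theorem cX_T4 (m : ℕ) {t : ↥(chevF4.group k)} (ht : t ∈ TT chevF4 k) (x : Fin 4 → ℤ) :
    cX hp (ste k m t) x = cX hp t (((2 ^ m : ℕ) : ℤ) • lin T4 x) := by
  have h1 := isMC_cX hp (ste_TT (m := m) ht)
  have h2 := isMC_cX hp ht
  have h3 : IsMC (fun x => cX hp t (((2 ^ m : ℕ) : ℤ) • lin T4 x)) :=
    h2.comp ((((2 ^ m : ℕ) : ℤ) • lin T4).toAddMonoidHom)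
  refine h1.ext h3 (fun i => ?_) x
  show cX hp (ste k m t) (sr i) = cX hp t (((2 ^ m : ℕ) : ℤ) • lin T4 (sr i))
  have h4 := cX_ste m ht (rv i)
  rw [rv_rv] at h4
  have e : lin T4 (sr i) = ((eN (rv i) : ℕ) : ℤ) • sr (rv i) := by
    funext j
    fin_cases i <;> fin_cases j <;> simp [lin_apply, V4.fn, app, ofn, T4, sr, eN, rv]
  rw [h4, e, h2.zsmul, h2.zsmul, zpow_natCast, zpow_natCast, ← pow_mul]

variable {W : Type*} [Group W] (cs : CoxeterSystem CoxeterMatrix.F₄ W)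

/-- the matrix of a twisted torus -/
theorem exists_mat (hk : LocFin k) [Fact (Nat.Prime 2)] {hN : NSys CoxeterMatrix.F₄ (TT chevF4 k) (nc hp k)} {w : W}
    {g : ↥(chevF4.group k)} (hg : Rp cs hN w g) (m : ℕ) : ∃ X : M4, chk X = true ∧
      ∀ t ∈ TT chevF4 k, g * ste k m t * g⁻¹ = t → ∀ x, cX hp t (((2 ^ m : ℕ) : ℤ) • lin X x) = cX hp t x := by
  obtain ⟨M, hM, h⟩ := exists_prod cs w⁻¹
  refine ⟨comp T4 M, chk_of_prod hM, fun t ht hgt x => ?_⟩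
  have h1 := cX_rp hp cs hk 2 hg (ste_TT (m := m) ht) (rep cs hp.isCartan w⁻¹ x)
  rw [hgt, rep_apply_inv, cX_T4 m ht, h] at h1
  rw [h1, lin_comp]

theorem ch_ne_one {t : ↥(chevF4.group k)} (ht : t ∈ TT chevF4 k) {X : M4} {m n : ℕ} (hodd : n.Coprime 2)
    (h3 : n.Coprime 3) (htn : t ^ n = 1) (ht1 : t ≠ 1) (h6 : Six X)
    (hX : ∀ x, cX hp t (((2 ^ m : ℕ) : ℤ) • lin X x) = cX hp t x) {a : Fin 4 → ℤ} (ha : IsRoot cs hp.isCartan a) :
    ch hp a t ≠ 1 := by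
  intro h1
  apply ht1
  rw [← cX_root hp cs ht ha] at h1
  obtain ⟨v, hv, hav⟩ := root_list cs ha
  have hφ := isMC_cX hp ht
  have hv1 : cX hp t v.fn = 1 := by
    rcases hav with rfl | rfl
    · exact h1
    · rw [hφ.neg, inv_eq_one] at h1
      exact h1
  refine cX_inj hp ht (one_mem _) fun i => ?_
  rw [cX_one]
  refine reg hφ hX (n := n) ?_ ?_ (fun x => by rw [← cX_pow hp ht, htn, cX_one]) h6 hv hv1 (sr i)
  · rw [show 48 = 2 ^ 4 * 3 by norm_num]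
    exact Nat.Coprime.mul_right (Nat.Coprime.pow_right 4 hodd) h3
  · exact Nat.isCoprime_iff_coprime.2 (Nat.Coprime.pow_right m hodd)

end Alg

/-! ### the finite group -/

section Fin

theorem five_not_dvd (m : ℕ) : ¬ 5 ∣ (2 ^ (2 * m + 1)) ^ 2 - 2 ^ (2 * m + 1) + 1 := by
  intro h
  have h1 : 5 ∣ (2 ^ (2 * m + 1)) ^ 2 + 1 := by
    have e : (2 ^ (2 * m + 1)) ^ 2 + 1 = 4 * 16 ^ m + 1 := by
      rw [← pow_mul, show (2 * m + 1) * 2 = 4 * m + 2 by ring, pow_add, pow_mul]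
      norm_num
      ring
    rw [e, Nat.dvd_iff_mod_eq_zero, Nat.add_mod, Nat.mul_mod, Nat.pow_mod]
    norm_num
  have h2 : 2 ^ (2 * m + 1) ≤ (2 ^ (2 * m + 1)) ^ 2 := Nat.le_self_pow (by norm_num) _
  have h3 : 5 ∣ 2 ^ (2 * m + 1) := by
    have h4 := Nat.dvd_sub h1 h
    have e : (2 ^ (2 * m + 1)) ^ 2 + 1 - ((2 ^ (2 * m + 1)) ^ 2 - 2 ^ (2 * m + 1) + 1) = 2 ^ (2 * m + 1) := by
      generalize 2 ^ (2 * m + 1) = a at h2 ⊢
      generalize a ^ 2 = b at h2 ⊢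
      omega
    rwa [e] at h4
  have h5 := Nat.Prime.dvd_of_dvd_pow Nat.prime_five h3
  norm_num at h5

section Pair

variable {k : Type u} [Field k] [IsAlgClosed k] [CharP k 2]

/-- the statement over the algebraically closed field -/
theorem dvd_of_comm (hk : LocFin k) [Fact (Nat.Prime 2)] (hka : HAlg 2 k) {m : ℕ} {t r : ℕ} (ht : t.Prime) (ht2 : t ≠ 2)
    (ht3 : t ≠ 3) (ht5 : t ≠ 5) {Q : ℕ} (hQ : Q = 2 ^ m) (hd : (t : ℤ) ∣ 4 * (Q : ℤ) ^ 4 - 2 * (Q : ℤ) ^ 2 + 1)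
    {y u : ↥(chevF4.group k)} (hy : ste k m y = y) (hu : ste k m u = u) (hyu : y * u = u * y) (hyo : orderOf y = t)
    (huo : orderOf u = r) : (r : ℤ) ∣ 4 * (Q : ℤ) ^ 4 - 2 * (Q : ℤ) ^ 2 + 1 := by
  let cs := CoxeterMatrix.F₄.toCoxeterSystem
  have : Finite CoxeterMatrix.F₄.Group := finite_W hp cs
  have hyt : y ^ t = 1 := by rw [← hyo, pow_orderOf_eq_one]
  obtain ⟨z, hz⟩ := TorAll.exists_toral hp 2 hka ht ht2 hyt
  set t0 := z⁻¹ * y * z with ht0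
  have h1 : ste k m t0 = (ste k m z)⁻¹ * y * ste k m z := by
    rw [ht0, map_mul, map_mul, map_inv, hy]
  have e1 : z⁻¹ * ste k m z * ste k m t0 = t0 * (z⁻¹ * ste k m z) := by
    rw [h1, ht0]; group
  obtain ⟨m', hm', w, g, hg, hgs, hc⟩ := H378.Regular.exists_form' hp cs hk 2 (ste_TT (m := m) hz) hz e1
  have hgt : g * ste k m t0 * g⁻¹ = t0 := by rw [hgs]; group
  obtain ⟨X, hX, hXt⟩ := exists_mat cs hk hg m
  have htn : t0 ^ t = 1 := by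
    have : t0 ^ t = z⁻¹ * y ^ t * z := by
      have h2 := conj_pow (a := z⁻¹) (b := y) (i := t)
      rwa [inv_inv] at h2
    rw [this, hyt]; group
  have ht01 : t0 ≠ 1 := by
    intro h2
    have h3 : y = z * t0 * z⁻¹ := by rw [ht0]; group
    rw [h2, mul_one, mul_inv_cancel] at h3
    rw [h3, orderOf_one] at hyo
    exact ht.one_lt.ne hyo
  have hφ := isMC_cX hp hz
  have hodd : Nat.Coprime t 2 := (Nat.coprime_primes ht Nat.prime_two).2 ht2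
  have h3c : Nat.Coprime t 3 := (Nat.coprime_primes ht Nat.prime_three).2 ht3
  have hpow : ∀ x, cX hp t0 x ^ t = 1 := fun x => by rw [← cX_pow hp hz, htn, cX_one]
  have hne : ∃ x, cX hp t0 x ≠ 1 := by
    by_contra h2
    push Not at h2
    apply ht01
    exact cX_inj hp hz (one_mem _) fun i => by rw [h2, cX_one]
  have h6 : Six X := six_of hφ (hXt t0 hz hgt) h3c hpow (by rw [← hQ]; exact hd) hne hX
  have hreg : ∀ a, IsRoot cs hp.isCartan a → ch hp a t0 ≠ 1 := fun a ha =>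
    ch_ne_one cs hz hodd h3c htn ht01 h6 (hXt t0 hz hgt) ha
  rw [H378.Regular.MM_eq_bot hp cs hreg, Subgroup.mem_bot] at hm'
  rw [hm', one_mul] at hc
  have hW : ¬ t ∣ Nat.card CoxeterMatrix.F₄.Group := by
    intro h2
    have h3 := H378.LatCodim.le_of_dvd_card cs hp.isCartan ht h2
    have h4 := ht.two_le
    interval_cases t
    · exact ht2 rfl
    · exact ht3 rfl
    · exact absurd ht (by norm_num)
    · exact ht5 rfl
  set s0 := z⁻¹ * u * z with hs0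
  have hst : s0 * t0 = t0 * s0 := by
    rw [hs0, ht0]
    calc z⁻¹ * u * z * (z⁻¹ * y * z) = z⁻¹ * (u * y) * z := by group
      _ = z⁻¹ * (y * u) * z := by rw [hyu]
      _ = _ := by group
  have hsT : s0 ∈ TT chevF4 k := H378.Regular.mem_TT_of_comm hp cs hz ht hW htn hreg hst hk 2
  have hσz : ste k m z = z * g := by rw [← hc]; group
  have hgs0 : g * ste k m s0 * g⁻¹ = s0 := by
    rw [hs0, map_mul, map_mul, map_inv, hσz, hu]; group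
  have hXs := hXt s0 hsT hgs0
  have hA := fun x => pow_ann (isMC_cX hp hsT) hXs (a := 0) (b := -2) (c := 0) (d := 4) (fun x => by
    rw [h6.1 x]
    simp) x
  have e2 : (1 - 0 * ((2 ^ m : ℕ) : ℤ) + -2 * ((2 ^ m : ℕ) : ℤ) ^ 2 - 0 * ((2 ^ m : ℕ) : ℤ) ^ 3 +
      4 * ((2 ^ m : ℕ) : ℤ) ^ 4) = 4 * (Q : ℤ) ^ 4 - 2 * (Q : ℤ) ^ 2 + 1 := by
    rw [← hQ]; ring
  rw [e2] at hA
  have hpos : 0 ≤ 4 * (Q : ℤ) ^ 4 - 2 * (Q : ℤ) ^ 2 + 1 := by nlinarith [sq_nonneg ((Q : ℤ) ^ 2), sq_nonneg (2 * (Q : ℤ) ^ 2 - 1)]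
  obtain ⟨N, hN⟩ := Int.eq_ofNat_of_zero_le hpos
  rw [hN] at hA ⊢
  have h7 : s0 ^ N = 1 := by
    refine cX_inj hp (pow_mem hsT N) (one_mem _) fun i => ?_
    rw [cX_pow hp hsT, cX_one]
    have := hA (sr i)
    rwa [zpow_natCast] at this
  have h8 : u ^ N = 1 := by
    have : u = z * s0 * z⁻¹ := by rw [hs0]; group
    rw [this, conj_pow, h7]; group
  rw [← huo]
  exact Int.natCast_dvd_natCast.2 (orderOf_dvd_of_pow_eq_one h8)

end Pair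

variable {K : Type u} [Field K] [Fintype K] {m : ℕ}

open Cfsg.Agent.ChevalleyStructure.TwF4.TwistedFix in
theorem tf4_nonadj (hm : 1 ≤ m) (hK : Fintype.card K = 2 ^ (2 * m + 1)) {t r : ℕ} (ht : t.Prime)
    (ht3 : t ≠ 3) (hd : t ∣ Fintype.card K ^ 2 - Fintype.card K + 1) (hr : r.Prime)
    (hrd : ¬ r ∣ Fintype.card K ^ 2 - Fintype.card K + 1) :
    ¬ ∃ x : ↥(Cfsg.Lie.twistedF4 K (2 ^ m)), orderOf x = r * t := by
  rintro ⟨x, hx⟩
  -- arithmetic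
  obtain ⟨Q, hQ⟩ : ∃ Q, Q = 2 ^ m := ⟨_, rfl⟩
  have hKQ : Fintype.card K = 2 * Q ^ 2 := by rw [hK, hQ, pow_succ, ← pow_mul, mul_comm m 2]; ring
  have hlt : 2 * Q ^ 2 ≤ (2 * Q ^ 2) ^ 2 := Nat.le_self_pow (by norm_num) _
  have hnZ : ((Fintype.card K ^ 2 - Fintype.card K + 1 : ℕ) : ℤ) = 4 * (Q : ℤ) ^ 4 - 2 * (Q : ℤ) ^ 2 + 1 := by
    rw [hKQ]
    push_cast [Nat.cast_sub hlt]
    ring
  have hdZ : (t : ℤ) ∣ 4 * (Q : ℤ) ^ 4 - 2 * (Q : ℤ) ^ 2 + 1 := by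
    rw [← hnZ]
    exact Int.natCast_dvd_natCast.2 hd
  have ht2 : t ≠ 2 := by
    rintro rfl
    have h1 : (2 : ℤ) ∣ 2 * (2 * (Q : ℤ) ^ 4 - (Q : ℤ) ^ 2) + 1 := by
      have e : 2 * (2 * (Q : ℤ) ^ 4 - (Q : ℤ) ^ 2) + 1 = 4 * (Q : ℤ) ^ 4 - 2 * (Q : ℤ) ^ 2 + 1 := by ring
      rw [e]
      exact_mod_cast hdZ
    omega
  have ht5 : t ≠ 5 := by
    rintro rfl
    rw [hK] at hd
    exact five_not_dvd m hd
  have : Fact (Nat.Prime 2) := ⟨Nat.prime_two⟩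
  have hc2 : CharP K 2 := F4Fixed.charP_two hK
  obtain ⟨φ, hφ⟩ := exists_rln hK
  obtain ⟨p, e, hpF, hpc, hpk, he, hpe, hk⟩ := H129.TorusUntw.exists_closure hK
  have hp2 : p = 2 := CharP.eq K hpc hc2
  subst hp2
  have hka : HAlg 2 (AlgebraicClosure K) := H343.PG.TwF4Fifteen.hAlg_closure 2 K
  set x1 : ↥(chevF4.group K) := ⟨(x : GL chevF4.Idx K), SuzT.twisted_le K m x.2⟩ with hx1
  have ho1 : orderOf x1 = r * t := by
    rw [← hx, ← Subgroup.orderOf_coe x1, ← Subgroup.orderOf_coe x]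
  have hs1 : ste K m x1 = x1 := SuzT.ste_of_twisted hφ x.2
  set x2 : ↥(chevF4.group (AlgebraicClosure K)) := emb Cfsg.Agent.H493.F4End.hD (algebraMap K (AlgebraicClosure K)) x1
    with hx2
  have ho2 : orderOf x2 = r * t := by
    rw [← ho1]
    exact orderOf_injective _ (emb_injective _ _) x1
  have hs2 : ste (AlgebraicClosure K) m x2 = x2 := by
    rw [hx2, ← emb_ste, hs1]
  have hrt : 0 < r * t := Nat.mul_pos hr.pos ht.pos
  have h1 : orderOf (x2 ^ r) = t := by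
    rw [orderOf_pow_of_dvd hr.ne_zero (by rw [ho2]; exact dvd_mul_right _ _), ho2, Nat.mul_div_cancel_left _ hr.pos]
  have h2 : orderOf (x2 ^ t) = r := by
    rw [orderOf_pow_of_dvd ht.ne_zero (by rw [ho2]; exact dvd_mul_left _ _), ho2, Nat.mul_div_cancel _ ht.pos]
  have h3 := dvd_of_comm hk hka ht ht2 ht3 ht5 hQ hdZ (y := x2 ^ r) (u := x2 ^ t) (by rw [map_pow, hs2])
    (by rw [map_pow, hs2]) (by rw [← pow_add, ← pow_add, add_comm]) h1 h2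
  apply hrd
  rw [← hnZ] at h3
  exact Int.natCast_dvd_natCast.1 h3

theorem tf4_three_five (hm : 1 ≤ m) (hK : Fintype.card K = 2 ^ (2 * m + 1)) :
    ¬ ∃ x : ↥(Cfsg.Lie.twistedF4 K (2 ^ m)), orderOf x = 3 * 5 :=
  H343.PG.TwF4Fifteen.not_exists_fifteen hK

end Fin

end Cfsg.Agent.H637.PG.TwF4Non
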